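import Cfsg.Agent.H435.Quot
import Cfsg.Agent.H435.Sol
import Cfsg.Agent.H435.Cases
import Cfsg.Agent.Lib.MinNormalNonabelian
import Cfsg.Agent.SolvableStructure.AbelianSocle
import Cfsg.Agent.OddRank.SzTits

/-!
# Core-free solvable maximal subgroups (helper435)
-/

set_option autoImplicit false

namespace Cfsg.Agent.H435.P3.Base

open Cfsg Cfsg.Agent.H435 Subgroup
open Cfsg.Agent.Lib.MinNormalNonabelian (minSet map_conj_mem_minSet nonabelian_structure)

variable {G : Type*} [Group G]

/-- the hypotheses on the point stabilizer -/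
structure Hyp (H : Subgroup G) : Prop where
  max : IsCoatom H
  free : ∀ N : Subgroup G, N.Normal → N ≤ H → N = ⊥
  sol : Group.IsSolvable H
  ns : ¬ Group.IsSolvable G

variable {H : Subgroup G}

theorem Hyp.normalizer_eq (h : Hyp H) {K : Subgroup G} (hK : K ≤ H) (hK1 : K ≠ ⊥)
    (hn : H ≤ normalizer (K : Set G)) : normalizer (K : Set G) = H := by
  rcases h.max.le_iff.1 hn with h1 | h1
  · exact absurd (h.free K (normalizer_eq_top_iff.1 h1) hK) hK1
  · exact h1

theorem Hyp.sup_eq (h : Hyp H) {N : Subgroup G} (hN : N.Normal) (hN1 : N ≠ ⊥) : N ⊔ H = ⊤ := by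
  rcases h.max.le_iff.1 (le_sup_right : H ≤ N ⊔ H) with h1 | h1
  · exact h1
  · exact absurd (h.free N hN (le_sup_left.trans h1.le)) hN1

/-- `G = N H` with `N` and `H` solvable -/
theorem Hyp.not_solvable (h : Hyp H) {N : Subgroup G} (hN : N.Normal) (hN1 : N ≠ ⊥) : ¬ Group.IsSolvable N := by
  intro hs
  apply h.ns
  rw [Group.isSolvable_iff_subgroup_quotient N]
  refine ⟨hs, ?_⟩
  have hsurj : Function.Surjective ((QuotientGroup.mk' N).comp H.subtype) := by
    intro q
    obtain ⟨g, rfl⟩ := QuotientGroup.mk'_surjective N q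
    have hg : g ∈ N ⊔ H := by rw [h.sup_eq hN hN1]; exact mem_top _
    rw [mem_sup_of_normal_left] at hg
    obtain ⟨n, hn, k, hk, rfl⟩ := hg
    refine ⟨⟨k, hk⟩, ?_⟩
    rw [map_mul]
    have : QuotientGroup.mk' N n = 1 := (QuotientGroup.eq_one_iff n).2 hn
    rw [this, one_mul]
    rfl
  have := h.sol
  exact Group.isSolvable_of_surjective hsurj

theorem Hyp.index_dvd (h : Hyp H) {N : Subgroup G} (hN : N.Normal) (hN1 : N ≠ ⊥) :
    N.index = (N ⊓ H).relIndex H := by
  have h1 := h.sup_eq hN hN1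
  have h2 : N.relIndex H = N.index := by
    rw [← relIndex_sup_right, sup_comm, h1, relIndex_top_right]
  rw [← h2]
  exact (inf_relIndex_right N H).symm

/-- two different simple factors commute -/
theorem commute_of_minSet [Finite G] {M : Subgroup G} [M.Normal]
    (hmin : ∀ N : Subgroup G, N.Normal → N ≤ M → N = ⊥ ∨ N = M)
    (hna : ¬ ∀ x ∈ M, ∀ y ∈ M, Commute x y) {S T : Subgroup G} (hS : S ∈ minSet M) (hT : T ∈ minSet M)
    (hne : S ≠ T) : ∀ x ∈ S, ∀ y ∈ T, Commute x y := by
  obtain ⟨-, hind, -, -, -, -⟩ := nonabelian_structure M hmin hna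
  have hd : Disjoint S T := by
    have h1 := hind hS
    refine h1.mono_right (le_sSup ?_)
    exact ⟨hT, fun h => hne (Set.mem_singleton_iff.1 h).symm⟩
  intro x hx y hy
  exact Cfsg.Agent.Lib.MinNormal.commute_of_disjoint (hS.1.trans hT.2.2.1) (hT.1.trans hS.2.2.1) hd hx hy

end Cfsg.Agent.H435.P3.Base
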