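import Cfsg.Agent.H435.P3.Base

/-!
# `O_{3'}(G) = 1` (helper435)
-/

set_option autoImplicit false

namespace Cfsg.Agent.H435.P3.Core

open Cfsg Cfsg.Agent.H435 Cfsg.Agent.H435.P3.Base Subgroup
open Cfsg.Agent.Lib.MinNormalNonabelian (minSet map_conj_mem_minSet nonabelian_structure)

variable {G : Type*} [Group G] [Finite G]

/-- an element of order 3 normalizing a cyclic 5-group centralizes it -/
theorem centralizes {Q : Subgroup G} [IsCyclic Q] (hQ : IsPGroup 5 Q) {y : G} (hy : orderOf y = 3)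
    (hn : y ∈ normalizer (Q : Set G)) : Q ≤ centralizer ({y} : Set G) := by
  have : Fact (Nat.Prime 5) := ⟨by norm_num⟩
  set α : MulAut Q := Q.normalizerMonoidHom ⟨y, hn⟩ with hα
  have h1 : orderOf α ∣ 3 := by
    apply orderOf_dvd_of_pow_eq_one
    rw [hα, ← map_pow]
    have : (⟨y, hn⟩ : normalizer (Q : Set G)) ^ 3 = 1 := by
      apply Subtype.ext
      change y ^ 3 = 1
      rw [← hy]; exact pow_orderOf_eq_one y
    rw [this, map_one]
  have h2 : orderOf α ∣ Nat.card (MulAut Q) := orderOf_dvd_natCard α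
  rw [IsCyclic.card_mulAut] at h2
  obtain ⟨k, hk⟩ := IsPGroup.iff_card.1 hQ
  rw [hk] at h2
  have h3 : orderOf α = 1 := by
    rcases (Nat.dvd_prime Nat.prime_three).1 h1 with h | h
    · exact h
    · exfalso
      rw [h] at h2
      rcases Nat.eq_zero_or_pos k with rfl | h0
      · norm_num at h2
      · rw [Nat.totient_prime_pow (by norm_num) h0] at h2
        rcases (Nat.prime_three.dvd_mul).1 h2 with h4 | h4
        · have := Nat.prime_three.dvd_of_dvd_pow h4
          norm_num at this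
        · norm_num at h4
  rw [orderOf_eq_one_iff] at h3
  have h4 : (⟨y, hn⟩ : normalizer (Q : Set G)) ∈ Q.normalizerMonoidHom.ker := h3
  rw [normalizerMonoidHom_ker, mem_subgroupOf] at h4
  intro q hq
  rw [mem_centralizer_singleton_iff]
  exact mem_centralizer_iff.1 h4 q hq

theorem five_of_normalizes {T : Subgroup G} (hT : Lie.IsoSuzuki T) {x : G} (hx : orderOf x = 3)
    (hn : x ∈ normalizer (T : Set G)) : ∃ y : G, orderOf y = 3 ∧ 5 ∣ Nat.card (centralizer ({y} : Set G)) := by
  have : Fact (Nat.Prime 5) := ⟨by norm_num⟩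
  obtain ⟨h3, h5⟩ := Cases.suz hT
  set R := normalizer (T : Set G) with hR
  have hTR : T ≤ R := le_normalizer
  let T' : Subgroup R := T.subgroupOf R
  have hT' : T'.Normal := inferInstanceAs (T.subgroupOf (normalizer (T : Set G))).Normal
  have hcT : Nat.card T' = Nat.card T := Nat.card_congr (subgroupOfEquivOfLe hTR).toEquiv
  obtain ⟨P⟩ : Nonempty (Sylow 5 T') := inferInstance
  have hfr := Sylow.normalizer_sup_eq_top P
  set Q : Subgroup R := (P : Subgroup T').map T'.subtype with hQ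
  have h3Q : 3 ∣ Nat.card (normalizer (Q : Set R)) := by
    have h1 : T'.relIndex (normalizer (Q : Set R)) = T'.index := by
      rw [← relIndex_sup_right, hfr, relIndex_top_right]
    have h2 : 3 ∣ Nat.card R := by
      have := orderOf_dvd_natCard (⟨x, hn⟩ : R)
      rwa [← Subgroup.orderOf_coe, hx] at this
    rw [← card_mul_index T', hcT, ← h1] at h2
    rcases (Nat.prime_three.dvd_mul).1 h2 with h | h'
    · contradiction
    · exact h'.trans (relIndex_dvd_card _ _)
  obtain ⟨y, hy⟩ := exists_prime_orderOf_dvd_card' 3 h3Q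
  have hyR : orderOf (y : R) = 3 := by rw [Subgroup.orderOf_coe, hy]
  have hT2 : Lie.IsoSuzuki T' := by
    obtain ⟨F, f1, f2, m, h1, h2, ⟨e⟩⟩ := hT
    exact ⟨F, f1, f2, m, h1, h2, ⟨(subgroupOfEquivOfLe hTR).trans e⟩⟩
  have hPc : IsCyclic (P : Subgroup T') :=
    OddRank.SzTits.isCyclic_of_isPGroup hT2 (by norm_num) _ P.isPGroup'
  let eP : (P : Subgroup T') ≃* Q := (P : Subgroup T').equivMapOfInjective _ T'.subtype_injective
  have hQc : IsCyclic Q := isCyclic_of_surjective eP eP.surjective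
  have hQp : IsPGroup 5 Q := P.isPGroup'.of_equiv eP
  have hc := centralizes hQp hyR y.2
  have h5Q : 5 ∣ Nat.card Q := by
    rw [← Nat.card_congr eP.toEquiv, P.card_eq_multiplicity, hcT]
    apply dvd_pow_self
    have : 1 ≤ (Nat.card T).factorization 5 := by
      rw [← Nat.Prime.pow_dvd_iff_le_factorization (by norm_num) Nat.card_pos.ne', pow_one]
      exact h5
    omega
  refine ⟨((y : R) : G), by rw [Subgroup.orderOf_coe, hyR], ?_⟩
  have h6 : (centralizer ({(y : R)} : Set R)).map R.subtype ≤ centralizer ({((y : R) : G)} : Set G) := by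
    rintro _ ⟨a, ha, rfl⟩
    rw [mem_centralizer_singleton_iff]
    exact congrArg Subtype.val (mem_centralizer_singleton_iff.1 ha)
  have h7 : Nat.card ((centralizer ({(y : R)} : Set R)).map R.subtype) = Nat.card (centralizer ({(y : R)} : Set R)) :=
    (Nat.card_congr (equivMapOfInjective _ _ R.subtype_injective).toEquiv).symm
  have h8 := card_dvd_of_le h6
  rw [h7] at h8
  exact (h5Q.trans (card_dvd_of_le hc)).trans h8

omit [Finite G] in
/-- three distinct commuting conjugates give a diagonal in the centralizer -/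
theorem card_dvd_of_orbit {T : Subgroup G} {x : G} (hx : orderOf x = 3)
    (hc1 : ∀ a ∈ T, ∀ b ∈ T, Commute a (x * b * x⁻¹)) (hc2 : ∀ a ∈ T, ∀ b ∈ T, Commute a (x⁻¹ * b * x))
    (hc3 : ∀ a ∈ T, ∀ b ∈ T, Commute (x * a * x⁻¹) (x⁻¹ * b * x))
    (hZ : ∀ z ∈ T, (∀ t ∈ T, Commute z t) → z = 1) :
    Nat.card T ∣ Nat.card (centralizer ({x} : Set G)) := by
  have hx3 : x * x * x = 1 := by
    have : x ^ 3 = 1 := by rw [← hx]; exact pow_orderOf_eq_one x
    rwa [pow_succ, pow_two] at this
  have hxx : x * x = x⁻¹ := by rw [← mul_eq_one_iff_eq_inv]; exact hx3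
  let f : T →* centralizer ({x} : Set G) :=
    { toFun := fun t => ⟨t * (x * t * x⁻¹) * (x⁻¹ * t * x), by
        rw [mem_centralizer_singleton_iff]
        have h1 := (hc1 t t.2 t t.2).eq
        have h2 := (hc2 t t.2 t t.2).eq
        have e1 : x * x * (t : G) * (x * x)⁻¹ = x⁻¹ * t * x := by rw [hxx, inv_inv]
        have h4 : x * (t * (x * t * x⁻¹) * (x⁻¹ * t * x)) * x⁻¹ = (t : G) * (x * t * x⁻¹) * (x⁻¹ * t * x) := by
          calc x * (t * (x * t * x⁻¹) * (x⁻¹ * t * x)) * x⁻¹
              = (x * t * x⁻¹) * (x * x * t * (x * x)⁻¹) * t := by group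
            _ = (x * t * x⁻¹) * ((x⁻¹ * t * x) * t) := by rw [e1, mul_assoc]
            _ = (x * t * x⁻¹) * (t * (x⁻¹ * t * x)) := by rw [h2]
            _ = (x * t * x⁻¹) * t * (x⁻¹ * t * x) := by rw [mul_assoc (x * (t : G) * x⁻¹)]
            _ = (t : G) * (x * t * x⁻¹) * (x⁻¹ * t * x) := by rw [h1]
        exact (mul_inv_eq_iff_eq_mul.1 h4).symm⟩
      map_one' := by
        apply Subtype.ext
        simp
      map_mul' := fun s t => by
        apply Subtype.ext
        have h1 := (hc1 t t.2 s s.2).eq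
        have h2 := (hc2 t t.2 s s.2).eq
        have h3 := (hc3 t t.2 s s.2).eq
        change ((s * t : T) : G) * (x * (s * t : T) * x⁻¹) * (x⁻¹ * (s * t : T) * x) =
          ((s : G) * (x * s * x⁻¹) * (x⁻¹ * s * x)) * ((t : G) * (x * t * x⁻¹) * (x⁻¹ * t * x))
        rw [Subgroup.coe_mul]
        calc (s * t : G) * (x * (s * t) * x⁻¹) * (x⁻¹ * (s * t) * x)
            = s * (t * (x * s * x⁻¹)) * ((x * t * x⁻¹) * (x⁻¹ * s * x)) * (x⁻¹ * t * x) := by group
          _ = s * ((x * s * x⁻¹) * t) * ((x⁻¹ * s * x) * (x * t * x⁻¹)) * (x⁻¹ * t * x) := by rw [h1, h3]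
          _ = s * (x * s * x⁻¹) * (t * (x⁻¹ * s * x)) * (x * t * x⁻¹) * (x⁻¹ * t * x) := by group
          _ = s * (x * s * x⁻¹) * ((x⁻¹ * s * x) * t) * (x * t * x⁻¹) * (x⁻¹ * t * x) := by rw [h2]
          _ = _ := by group }
  have hinj : Function.Injective f := by
    rw [injective_iff_map_eq_one]
    intro t ht
    have h1 : (t : G) * (x * t * x⁻¹) * (x⁻¹ * t * x) = 1 := congrArg Subtype.val ht
    apply Subtype.ext
    apply hZ _ t.2
    intro u hu
    have h2 : (t : G) = ((x * t * x⁻¹) * (x⁻¹ * t * x))⁻¹ := by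
      rw [eq_inv_iff_mul_eq_one, ← mul_assoc]; exact h1
    have h3 : Commute u ((x * t * x⁻¹) * (x⁻¹ * t * x)) := (hc1 u hu t t.2).mul_right (hc2 u hu t t.2)
    rw [h2]
    exact h3.inv_right.symm
  exact card_dvd_of_injective f hinj

/-- the main result: `O_{3'}(G) = 1` -/
theorem core_eq_bot {H : Subgroup G} (h : Hyp H) {x : G} (hx : orderOf x = 3)
    (hC : Nat.card (centralizer ({x} : Set G)) ∣ 6) : pPrimeCore 3 G = ⊥ := by
  have h9 : ¬ 9 ∣ Nat.card G := Three.not_nine hx fun h => by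
    have := Nat.le_of_dvd (by norm_num) (h.trans hC)
    omega
  by_contra hne
  have hN : (pPrimeCore 3 G).Normal := inferInstance
  obtain ⟨M, hMn, hM1, hMle, hmin⟩ := SolvableStructure.AbelianSocle.exists_minimal_normal_le hN hne
  have h3 : ¬ 3 ∣ Nat.card M := by
    intro h3
    have h1 := h3.trans (card_dvd_of_le hMle)
    exact (Nat.Prime.coprime_iff_not_dvd Nat.prime_three).1 (Lib.Cores.pPrimeCore_coprime (G := G) 3).symm h1
  have hna : ¬ ∀ x ∈ M, ∀ y ∈ M, Commute x y := by
    intro hc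
    apply h.not_solvable hMn hM1
    exact Group.isSolvable_of_comm fun a b => Subtype.ext (hc a a.2 b b.2)
  obtain ⟨⟨T, hT⟩, hind, hsup, hsimp, hZ, -⟩ := nonabelian_structure M hmin hna
  have hTs := hsimp T hT
  have hTna : ¬ IsMulCommutative T := by
    intro hc
    obtain ⟨z, hz⟩ := exists_ne (1 : T)
    apply hz
    apply Subtype.ext
    apply hZ T hT z z.2
    intro t ht
    exact congrArg Subtype.val (hc.is_comm.comm z ⟨t, ht⟩)
  have h3T : ¬ 3 ∣ Nat.card T := fun h' => h3 (h'.trans (card_dvd_of_le hT.1))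
  have hSz : Lie.IsoSuzuki T := ThreePrime.Main.isoSuzuki' hTna h3T
  have h5 := (Cases.suz hSz).2
  have hcard : ∀ y : G, orderOf y = 3 → ¬ 5 ∣ Nat.card (centralizer ({y} : Set G)) := by
    intro y hy h5
    rw [Three.card_centralizer h9 hx hy] at h5
    have := h5.trans hC
    norm_num at this
  by_cases hn : x ∈ normalizer (T : Set G)
  · obtain ⟨y, hy, hy5⟩ := five_of_normalizes hSz hx hn
    exact hcard y hy hy5
  · -- three conjugates
    have key : ∀ g : G, g ∉ normalizer (T : Set G) → ∀ a ∈ T, ∀ b ∈ T, Commute a (g * b * g⁻¹) := by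
      intro g hg a ha b hb
      refine commute_of_minSet hmin hna hT (map_conj_mem_minSet hT g) ?_ a ha _ ⟨b, hb, rfl⟩
      intro heq
      apply hg
      rw [mem_normalizer_iff]
      intro c
      constructor
      · intro hc
        rw [heq]
        exact ⟨c, hc, rfl⟩
      · intro hc
        rw [heq] at hc
        obtain ⟨d, hd, hdc⟩ := hc
        have : d = c := by
          have h1 : g * d * g⁻¹ = g * c * g⁻¹ := hdc
          exact mul_left_cancel (mul_right_cancel h1)
        rwa [← this]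
    have hxi : x⁻¹ ∉ normalizer (T : Set G) := fun h' => hn (by simpa using inv_mem h')
    have hx3 : x * x * x = 1 := by
      have : x ^ 3 = 1 := by rw [← hx]; exact pow_orderOf_eq_one x
      rwa [pow_succ, pow_two] at this
    have hxx : x * x = x⁻¹ := by rw [← mul_eq_one_iff_eq_inv]; exact hx3
    have h1 := card_dvd_of_orbit hx (key x hn) (fun a ha b hb => by
      have := key x⁻¹ hxi a ha b hb
      rwa [inv_inv] at this) (fun a ha b hb => by
      have h2 := (key x hn a ha b hb).eq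
      have h4 : x⁻¹ * b * x = x * (x * b * x⁻¹) * x⁻¹ := by
        nth_rw 1 [← hxx]
        have h5 : x = x⁻¹ * x⁻¹ := by rw [← mul_inv_rev, hxx, inv_inv]
        nth_rw 3 [h5]
        group
      rw [h4]
      change x * a * x⁻¹ * (x * (x * b * x⁻¹) * x⁻¹) = x * (x * b * x⁻¹) * x⁻¹ * (x * a * x⁻¹)
      calc x * a * x⁻¹ * (x * (x * b * x⁻¹) * x⁻¹) = x * (a * (x * b * x⁻¹)) * x⁻¹ := by group
        _ = x * ((x * b * x⁻¹) * a) * x⁻¹ := by rw [h2]
        _ = _ := by group) (hZ T hT)
    exact hcard x hx (h5.trans h1)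

end Cfsg.Agent.H435.P3.Core
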