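import Cfsg.Agent.H435.Six
import Cfsg.Agent.H413.JOneLocal

/-!
# Simple groups with a centralizer of order 3 or 6 of an element of order 3 (helper435)
-/

set_option autoImplicit false

namespace Cfsg.Agent.H435.P3.LemB

open Cfsg Cfsg.Agent.H435 Cfsg.Agent.H435.Cases Cfsg.Agent.H435.Ord Cfsg.Agent.H435.Elts Subgroup Matrix

/-- a finite simple group with `9 ∤ |G|` and `|C(x)| ∣ 6` for an element `x` of order 3 has order 60, 168, 660 or 1092 -/
theorem lemmaB {G : Type*} [Group G] [Finite G] [IsSimpleGroup G] (hna : ¬ IsMulCommutative G)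
    (h9 : ¬ 9 ∣ Nat.card G) {x : G} (hx : orderOf x = 3) (hC : Nat.card (centralizer ({x} : Set G)) ∣ 6) :
    Nat.card G = 60 ∨ Nat.card G = 168 ∨ Nat.card G = 660 ∨ Nat.card G = 1092 := by
  have h3 : 3 ∣ Nat.card G := by rw [← hx]; exact orderOf_dvd_natCard x
  have h27 : ¬ 27 ∣ Nat.card G := fun h => h9 (Dvd.dvd.trans (by norm_num) h)
  have hbig : ∀ k, BigCent G k → k ∣ 6 := by
    rintro k ⟨y, V, hy, hV, rfl⟩
    refine Dvd.dvd.trans ?_ hC
    rw [← Three.card_centralizer h9 hx hy]
    apply card_dvd_of_le
    intro z hz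
    rw [mem_centralizer_singleton_iff]
    exact hV z hz
  have hcyc : ∀ C : Subgroup G, IsCyclic C → 3 ∣ Nat.card C → Nat.card C ∣ 6 := by
    intro C hCy h3C
    obtain ⟨y, hy⟩ := exists_prime_orderOf_dvd_card' (G := C) 3 h3C
    have hy' : orderOf (y : G) = 3 := by rw [Subgroup.orderOf_coe, hy]
    refine hbig _ ⟨y, C, hy', fun z hz => ?_, rfl⟩
    exact congrArg Subtype.val (IsMulCommutative.is_comm.comm (⟨z, hz⟩ : C) y)
  rcases Cases.not27 hna h27 h3 with h | h | h | h | h | h | h | h | h
  · obtain ⟨n, hn, hn8, ⟨e⟩⟩ := h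
    have hc := alt_card hn e
    interval_cases n
    · rw [show Nat.factorial 5 = 120 from rfl] at hc
      omega
    · rw [show Nat.factorial 6 = 720 from rfl] at hc
      omega
    · rw [show Nat.factorial 7 = 5040 from rfl] at hc
      omega
    · rw [show Nat.factorial 8 = 40320 from rfl] at hc
      omega
  · obtain ⟨F, _, _, n, hn, hn2, ⟨e⟩⟩ := h
    have hq : 1 < Fintype.card F := Fintype.one_lt_card
    by_cases hn4 : 4 ≤ n
    · exfalso
      have h1 := hbig _ ((Elts.psl (F := F) hn4).congr e.symm)
      generalize Fintype.card F = q at *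
      have hle := Nat.le_of_dvd (by norm_num) h1
      have : q ≤ 2 := by nlinarith
      interval_cases q
      norm_num at h1
    obtain rfl | rfl : n = 2 ∨ n = 3 := by omega
    · have hc := psl2_card (F := F)
      rw [← Nat.card_congr e.toEquiv] at hc
      have hq4 := hn2 rfl
      have hcyc' : ∀ C : Subgroup (Matrix.ProjectiveSpecialLinearGroup (Fin 2) F), IsCyclic C → 3 ∣ Nat.card C →
          Nat.card C ∣ 6 := by
        intro C hC1 hC2
        have e2 : ↥C ≃* ↥(C.map e.symm.toMonoidHom) := C.equivMapOfInjective _ e.symm.injective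
        rw [Nat.card_congr e2.toEquiv] at hC2 ⊢
        exact hcyc _ (isCyclic_of_surjective e2 e2.surjective) hC2
      by_cases h3q : 3 ∣ Fintype.card F
      · exfalso
        obtain ⟨p, hcp⟩ := CharP.exists F
        obtain ⟨n, hp, hpn⟩ := FiniteField.card F p
        have hp3 : p = 3 := by
          have : 3 ∣ p ^ (n : ℕ) := by rw [← hpn]; exact h3q
          exact ((Nat.prime_dvd_prime_iff_eq Nat.prime_three hp).1 (Nat.prime_three.dvd_of_dvd_pow this)).symm
        subst hp3
        have hn : 2 ≤ (n : ℕ) := by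
          by_contra hlt
          have : (n : ℕ) = 1 := by have := n.pos; omega
          rw [hpn, this] at hq4
          omega
        have h9' : 9 ∣ Fintype.card F := by
          rw [hpn]
          exact pow_dvd_pow 3 hn
        apply h9
        have h1 : 9 ∣ Nat.gcd 2 (Fintype.card F - 1) * Nat.card G := by
          rw [hc]
          exact h9'.mul_right _
        have h2 : Nat.Coprime 9 (Nat.gcd 2 (Fintype.card F - 1)) :=
          Nat.Coprime.coprime_dvd_right (Nat.gcd_dvd_left _ _) (by norm_num)
        exact h2.dvd_of_dvd_mul_left h1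
      · obtain ⟨C, hCc, hCd⟩ := Six.exists_split F
        rw [card_units_eq] at hCd
        obtain ⟨D, -, -, -, hDc, hD, -⟩ := ClassicalGeometry.PSLTorus.exists_psl_torus F
        generalize Fintype.card F = q at *
        have hg : Nat.gcd 2 (q - 1) = 1 ∨ Nat.gcd 2 (q - 1) = 2 :=
          (Nat.dvd_prime Nat.prime_two).1 (Nat.gcd_dvd_left _ _)
        have h12 : q % 3 = 1 ∨ q % 3 = 2 := by omega
        rcases h12 with h1 | h2
        · have h3C : 3 ∣ Nat.card C := by
            have : 3 ∣ 2 * Nat.card C := Dvd.dvd.trans (by omega) hCd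
            omega
          have h6 := hcyc' C hCc h3C
          have h12 : q - 1 ∣ 12 := hCd.trans (Nat.mul_dvd_mul_left 2 h6)
          have hle := Nat.le_of_dvd (by norm_num) h12
          have : q = 4 ∨ q = 7 ∨ q = 13 := by
            have : q ≤ 13 := by omega
            interval_cases q <;> omega
          rcases this with rfl | rfl | rfl <;> norm_num at hc <;> omega
        · have h3D : 3 ∣ Nat.card D := by
            rw [hD]
            rcases hg with hg | hg <;> rw [hg]
            · omega
            · have h := Nat.gcd_dvd_right 2 (q - 1)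
              rw [hg] at h
              omega
          have h6 := hcyc' D hDc h3D
          rw [hD] at h6
          have hle := Nat.le_of_dvd (by norm_num) h6
          have hq12 : q ≤ 12 := by
            rcases hg with hg | hg <;> rw [hg] at hle <;> omega
          interval_cases q <;> norm_num at * <;> omega
    · have hc := psl3_card (F := F)
      rw [← Nat.card_congr e.toEquiv] at hc
      have h012 : Fintype.card F % 3 = 0 ∨ Fintype.card F % 3 = 1 ∨ Fintype.card F % 3 = 2 := by omega
      rcases h012 with h0 | h0 | h0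
      · exfalso
        generalize Fintype.card F = q at *
        have h27' : 27 ∣ q ^ 3 := by
          obtain ⟨r, rfl⟩ := Nat.dvd_of_mod_eq_zero h0
          exact ⟨r ^ 3, by ring⟩
        have h27' : 27 ∣ Nat.gcd 3 (q - 1) * Nat.card G := by
          rw [hc]; exact h27'.mul_right _
        have hg : Nat.gcd 3 (q - 1) = 1 := by
          rw [← Nat.coprime_iff_gcd_eq_one, Nat.Prime.coprime_iff_not_dvd Nat.prime_three]
          omega
        rw [hg, one_mul] at h27'
        exact h27 h27'
      · exfalso
        generalize Fintype.card F = q at *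
        have h27' : 27 ∣ Nat.gcd 3 (q - 1) * Nat.card G := by
          rw [hc]
          apply Dvd.dvd.mul_left
          obtain ⟨r, rfl⟩ : ∃ r, q = 3 * r + 1 := ⟨q / 3, by omega⟩
          have e1 : (3 * r + 1) ^ 2 - 1 = 3 * (3 * r ^ 2 + 2 * r) := by
            rw [show (3 * r + 1) ^ 2 = 3 * (3 * r ^ 2 + 2 * r) + 1 by ring, Nat.add_sub_cancel]
          have e2 : (3 * r + 1) ^ 3 - 1 = 9 * (3 * r ^ 3 + 3 * r ^ 2 + r) := by
            rw [show (3 * r + 1) ^ 3 = 9 * (3 * r ^ 3 + 3 * r ^ 2 + r) + 1 by ring, Nat.add_sub_cancel]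
          rw [e1, e2]
          exact ⟨(3 * r ^ 2 + 2 * r) * (3 * r ^ 3 + 3 * r ^ 2 + r), by ring⟩
        rcases (Nat.dvd_prime Nat.prime_three).1 (Nat.gcd_dvd_left 3 (q - 1)) with hg | hg
        · rw [hg] at h27'; omega
        · rw [hg] at h27'; omega
      · have h1 := hbig _ ((Elts.psl3_two (F := F) (by omega)).congr e.symm)
        have hle := Nat.le_of_dvd (by norm_num) h1
        have hcase : Fintype.card F = 2 := by
          generalize Fintype.card F = q at *
          have : q ≤ 7 := by omega
          interval_cases q <;> omega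
        rw [hcase] at hc
        norm_num at hc
        omega
  · obtain ⟨F, _, _, hq, ⟨e⟩⟩ := h
    exfalso
    have h1 := hbig _ ((Elts.psp F).congr e.symm)
    have hc := psp_card (F := F) 2 (by norm_num)
    rw [← Nat.card_congr e.toEquiv] at hc
    have hle := Nat.le_of_dvd (by norm_num) h1
    have h3 : 3 ∣ Fintype.card F := by
      generalize Fintype.card F = q at *
      interval_cases q <;> omega
    have h2 : 27 ∣ Nat.gcd 2 (Fintype.card F - 1) * Nat.card G := by
      rw [hc]
      apply Dvd.dvd.mul_right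
      obtain ⟨r, hr⟩ := h3
      exact ⟨3 * r ^ 4, by rw [hr]; ring⟩
    have h4 : Nat.Coprime 27 (Nat.gcd 2 (Fintype.card F - 1)) :=
      Nat.Coprime.coprime_dvd_right (Nat.gcd_dvd_left _ _) (by norm_num)
    exact h27 (h4.dvd_of_dvd_mul_left h2)
  · obtain ⟨F, _, _, n, q, hF, hn, hn2, ⟨e⟩⟩ := h
    exfalso
    have hq : 2 ≤ q := by
      have : 1 < Fintype.card F := Fintype.one_lt_card
      rw [hF] at this
      by_contra hlt
      have : q ≤ 1 := by omega
      nlinarith
    by_cases hn4 : 4 ≤ n
    · have h1 := hbig _ ((Elts.psu hF hn4).congr e.symm)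
      have h2 := psu_dvd hF hn4
      rw [← Nat.card_congr e.toEquiv] at h2
      have hle := Nat.le_of_dvd (by norm_num) h1
      by_cases h3 : 3 ∣ q
      · apply h27
        refine Dvd.dvd.trans ?_ h2
        apply Dvd.dvd.mul_right
        have h4 : 27 ∣ q ^ 3 := by
          obtain ⟨r, rfl⟩ := h3
          exact ⟨r ^ 3, by ring⟩
        refine h4.trans (pow_dvd_pow _ ?_)
        have : 4 * 3 ≤ n * (n - 1) := Nat.mul_le_mul hn4 (by omega)
        omega
      · have hq2 : q = 2 := by interval_cases q <;> omega
        subst hq2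
        apply h27
        refine Dvd.dvd.trans ?_ h2
        apply Dvd.dvd.mul_left
        norm_num
    · obtain rfl : n = 3 := by omega
      have hc := psu3_card hF
      rw [← Nat.card_congr e.toEquiv] at hc
      have h012 : q % 3 = 0 ∨ q % 3 = 1 ∨ q % 3 = 2 := by omega
      rcases h012 with h0 | h0 | h0
      · have h27' : 27 ∣ q ^ 3 := by
          obtain ⟨r, rfl⟩ := Nat.dvd_of_mod_eq_zero h0
          exact ⟨r ^ 3, by ring⟩
        have h27' : 27 ∣ Nat.gcd 3 (q + 1) * Nat.card G := by
          rw [hc]; exact h27'.mul_right _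
        have hg : Nat.gcd 3 (q + 1) = 1 := by
          rw [← Nat.coprime_iff_gcd_eq_one, Nat.Prime.coprime_iff_not_dvd Nat.prime_three]
          omega
        rw [hg, one_mul] at h27'
        exact h27 h27'
      · have h3F : (3 : F) ≠ 0 := by
          intro h3F
          obtain ⟨p, hp⟩ := CharP.exists F
          have hpp : p.Prime := (CharP.char_is_prime_or_zero F p).resolve_right (CharP.char_ne_zero_of_finite F p)
          have h1 : p ∣ 3 := (CharP.cast_eq_zero_iff F p 3).1 (by exact_mod_cast h3F)
          have h2 := (Nat.prime_dvd_prime_iff_eq hpp Nat.prime_three).1 h1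
          subst h2
          obtain ⟨n, -, hn⟩ := FiniteField.card F 3
          have h3q : 3 ∣ q ^ 2 := by
            rw [← hF, hn]
            exact dvd_pow_self _ n.pos.ne'
          have := Nat.prime_three.dvd_of_dvd_pow h3q
          omega
        have h1 := hbig _ ((Elts.psu3_one hF (by omega) h3F).congr e.symm)
        have hle := Nat.le_of_dvd (by norm_num) h1
        have : q ≤ 5 := by omega
        interval_cases q <;> omega
      · have h27' : 27 ∣ Nat.gcd 3 (q + 1) * Nat.card G := by
          rw [hc]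
          apply Dvd.dvd.mul_left
          obtain ⟨r, rfl⟩ : ∃ r, q = 3 * r + 2 := ⟨q / 3, by omega⟩
          have e1 : (3 * r + 2) ^ 2 - 1 = 3 * (3 * r ^ 2 + 4 * r + 1) := by
            rw [show (3 * r + 2) ^ 2 = 3 * (3 * r ^ 2 + 4 * r + 1) + 1 by ring, Nat.add_sub_cancel]
          have e2 : (3 * r + 2) ^ 3 + 1 = 9 * (3 * r ^ 3 + 6 * r ^ 2 + 4 * r + 1) := by ring
          rw [e1, e2]
          exact ⟨(3 * r ^ 2 + 4 * r + 1) * (3 * r ^ 3 + 6 * r ^ 2 + 4 * r + 1), by ring⟩
        rcases (Nat.dvd_prime Nat.prime_three).1 (Nat.gcd_dvd_left 3 (q + 1)) with hg | hg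
        · rw [hg] at h27'; omega
        · rw [hg] at h27'; omega
  · exfalso; omega
  · exfalso; omega
  · exfalso; omega
  · exfalso; omega
  · exfalso
    obtain ⟨⟨e⟩, -⟩ := h
    have h1 := H413.JOneLocal.isLocal.cent3 (e x) (by rw [MulEquiv.orderOf_eq, hx])
    have h2 : BigCent Spor.J1 30 :=
      ⟨e x, centralizer ({e x} : Set Spor.J1), by rw [MulEquiv.orderOf_eq, hx],
        fun y hy => mem_centralizer_singleton_iff.1 hy, h1⟩
    have h4 := hbig _ (h2.congr e.symm)
    norm_num at h4

end Cfsg.Agent.H435.P3.LemB
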