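import Mathlib

/-!
# Facts on the symmetric group of degree 4 (helper435)
-/

set_option autoImplicit false

namespace Cfsg.Agent.H435.P3.P4

open Equiv Subgroup

set_option linter.dupNamespace false in
abbrev P4 := Equiv.Perm (Fin 4)

def t : P4 := swap 0 1 * swap 2 3
def v : P4 := swap 0 2 * swap 1 3
def w : P4 := swap 0 1
def r : P4 := v * w

theorem tt : t * t = 1 := by decide
theorem vv : v * v = 1 := by decide
theorem ww : w * w = 1 := by decide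
theorem tv : t * v = v * t := by decide
theorem tw : t * w = w * t := by decide
theorem t1 : t ≠ 1 := by decide
theorem v1 : v ≠ 1 := by decide
theorem w1 : w ≠ 1 := by decide
theorem ntv : t ≠ v := by decide

/-- involutions of `C(t)` -/
theorem f1 : ∀ x : P4, x * t = t * x → x * x = 1 → x = 1 ∨ x = t ∨ x = v ∨ x = t * v ∨ x = w ∨ x = t * w := by
  decide +kernel

/-- the centre of `C(t)` -/
theorem f2 : ∀ x : P4, x * t = t * x → x * v = v * x → x * w = w * x → x = 1 ∨ x = t := by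
  decide +kernel

theorem f3 : ∀ x : P4, x * t = t * x → x * v = v * x → x = 1 ∨ x = t ∨ x = v ∨ x = t * v := by
  decide +kernel

theorem f4 : ∀ g : P4, (g * t * g⁻¹ = t ∨ g * t * g⁻¹ = v ∨ g * t * g⁻¹ = t * v) ∧
    (g * v * g⁻¹ = t ∨ g * v * g⁻¹ = v ∨ g * v * g⁻¹ = t * v) := by
  decide +kernel

/-- every nontrivial normal subgroup contains `t` and `v` -/
theorem f5 : ∀ x : P4, x ≠ 1 → (∃ g : P4, g * x * g⁻¹ = t) ∨ (∃ g h : P4, h * (x * (g * x * g⁻¹)) * h⁻¹ = t) := by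
  decide +kernel

theorem f6 : ∃ g : P4, g * t * g⁻¹ = v ∧ g * v * g⁻¹ = t * v ∧ g * (t * v) * g⁻¹ = t := by
  decide +kernel

theorem mem_of_normal {K : Subgroup P4} (hK : K.Normal) (h : K ≠ ⊥) : t ∈ K ∧ v ∈ K := by
  have ht : t ∈ K := by
    obtain ⟨x, hx, hx1⟩ := (K.bot_or_exists_ne_one).resolve_left h
    rcases f5 x hx1 with ⟨g, hg⟩ | ⟨g, k, hg⟩
    · rw [← hg]; exact hK.conj_mem x hx g
    · rw [← hg]
      exact hK.conj_mem _ (K.mul_mem hx (hK.conj_mem x hx g)) k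
  obtain ⟨g, hg, -⟩ := f6
  exact ⟨ht, by rw [← hg]; exact hK.conj_mem _ ht g⟩

theorem card_P4 : Nat.card P4 = 24 := by
  rw [Nat.card_eq_fintype_card, Fintype.card_perm, Fintype.card_fin]; rfl

theorem eq_top {K : Subgroup P4} (hK : K.Normal) (h : 8 ∣ Nat.card K) : K = ⊤ := by
  have h1 := card_mul_index K
  rw [card_P4] at h1
  obtain ⟨k, hk⟩ := h
  have h3 : K.index ∣ 3 := ⟨k, by rw [hk] at h1; nlinarith⟩
  have hinv : ∀ x : P4, x * x = 1 → x ∈ K := by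
    intro x hx
    rw [← QuotientGroup.eq_one_iff]
    have h4 : orderOf (QuotientGroup.mk x : P4 ⧸ K) ∣ 2 := by
      apply orderOf_dvd_of_pow_eq_one
      rw [← QuotientGroup.mk_pow, pow_two, hx, QuotientGroup.mk_one]
    have h5 : orderOf (QuotientGroup.mk x : P4 ⧸ K) ∣ 3 := by
      exact (_root_.orderOf_dvd_natCard _).trans h3
    have h6 : orderOf (QuotientGroup.mk x : P4 ⧸ K) ∣ Nat.gcd 2 3 := Nat.dvd_gcd h4 h5
    rw [show Nat.gcd 2 3 = 1 from rfl, Nat.dvd_one, orderOf_eq_one_iff] at h6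
    exact h6
  rw [eq_top_iff, ← Equiv.Perm.closure_isSwap, closure_le]
  rintro x ⟨a, b, hab, rfl⟩
  exact hinv _ (swap_mul_self a b)

theorem card_cent : Nat.card (centralizer ({t} : Set P4)) = 8 := by
  have h : (centralizer ({t} : Set P4) : Set P4) = ((Finset.univ.filter fun x : P4 => x * t = t * x) : Finset P4) := by
    ext x
    rw [SetLike.mem_coe, mem_centralizer_singleton_iff]
    simp
  have h2 : Nat.card (centralizer ({t} : Set P4)) = ((centralizer ({t} : Set P4) : Set P4)).ncard := rfl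
  rw [h2, h, Set.ncard_coe_finset]
  decide +kernel

/-- the subgroups of order 8 are conjugate to `C(t)` -/
theorem exists_conj {B : Subgroup P4} (hB : Nat.card B = 8) :
    ∃ g : P4, (centralizer ({t} : Set P4)).map (MulAut.conj g).toMonoidHom = B := by
  have : Fact (Nat.Prime 2) := ⟨Nat.prime_two⟩
  have hf : (Nat.card P4).factorization 2 = 3 := by
    rw [card_P4, show (24 : ℕ) = 2 ^ 3 * 3 by norm_num, Nat.factorization_mul (by norm_num) (by norm_num),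
      Nat.factorization_pow]
    simp [Nat.prime_two.factorization, Nat.prime_three.factorization]
  let P : Sylow 2 P4 := Sylow.ofCard (centralizer ({t} : Set P4)) (by rw [card_cent, hf]; norm_num)
  let Q : Sylow 2 P4 := Sylow.ofCard B (by rw [hB, hf]; norm_num)
  obtain ⟨g, hg⟩ := MulAction.exists_smul_eq P4 P Q
  refine ⟨g, ?_⟩
  have h1 : (Q : Subgroup P4) = B := rfl
  rw [← h1, ← hg, Sylow.coe_subgroup_smul]
  rfl

/-- commutators in `C(t)` -/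
theorem f7 : ∀ x y : P4, x * t = t * x → y * t = t * y → x * y * x⁻¹ * y⁻¹ = 1 ∨ x * y * x⁻¹ * y⁻¹ = t := by
  decide +kernel

theorem f8 : v * w * v⁻¹ * w⁻¹ = t := by decide

theorem f9 : ∀ w₁ : P4, (w₁ = w ∨ w₁ = t * w) → ∀ x : P4, x * t = t * x →
    ∃ a b c : Fin 2, x = v ^ (a : ℕ) * w₁ ^ (b : ℕ) * t ^ (c : ℕ) := by
  decide +kernel

theorem f10' : ∀ a b c d e : Fin 2,
    ¬ (t ^ (e : ℕ) * v = (v ^ (a : ℕ) * (t ^ (d : ℕ) * w) ^ (b : ℕ) * t ^ (c : ℕ)) * v *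
      (v ^ (a : ℕ) * (t ^ (d : ℕ) * w) ^ (b : ℕ) * t ^ (c : ℕ))⁻¹ ∧
    (t ^ (d : ℕ) * w) ^ (a : ℕ) * (t ^ (e : ℕ) * v) ^ (b : ℕ) * t ^ (c : ℕ) =
      v ^ (a : ℕ) * (t ^ (d : ℕ) * w) ^ (b : ℕ) * t ^ (c : ℕ) * t) := by
  decide +kernel

theorem f10 (w₁ v₁ : P4) (hw : w₁ = w ∨ w₁ = t * w) (hv : v₁ = v ∨ v₁ = t * v) (a b c : Fin 2)
    (h1 : v₁ = (v ^ (a : ℕ) * w₁ ^ (b : ℕ) * t ^ (c : ℕ)) * v * (v ^ (a : ℕ) * w₁ ^ (b : ℕ) * t ^ (c : ℕ))⁻¹)
    (h2 : w₁ ^ (a : ℕ) * v₁ ^ (b : ℕ) * t ^ (c : ℕ) = v ^ (a : ℕ) * w₁ ^ (b : ℕ) * t ^ (c : ℕ) * t) : False := by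
  obtain ⟨d, rfl⟩ : ∃ d : Fin 2, w₁ = t ^ (d : ℕ) * w := by
    rcases hw with rfl | rfl
    · exact ⟨0, by simp⟩
    · exact ⟨1, by simp⟩
  obtain ⟨e, rfl⟩ : ∃ d : Fin 2, v₁ = t ^ (d : ℕ) * v := by
    rcases hv with rfl | rfl
    · exact ⟨0, by simp⟩
    · exact ⟨1, by simp⟩
  exact f10' a b c d e ⟨h1, h2⟩

theorem f11 : ∀ w₁ : P4, (w₁ = w ∨ w₁ = t * w) → ∀ a b c : Fin 2,
    (v ^ (a : ℕ) * w₁ ^ (b : ℕ) * t ^ (c : ℕ)) * (w₁ ^ (a : ℕ) * v ^ (b : ℕ) * t ^ (c : ℕ)) ≠ t := by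
  decide +kernel

end Cfsg.Agent.H435.P3.P4
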