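import Cfsg.Agent.H435.P3.Core
import Cfsg.Agent.H435.P3.LemB
import Cfsg.Agent.H435.Pgl
import Cfsg.Agent.UAlt.AutFive
import Cfsg.Agent.S0494
import Cfsg.Agent.S0495
import Cfsg.Agent.S0498
import Cfsg.Agent.S0803

/-!
# The stabilizers `S₃` and `D₁₂` (helper435)
-/

set_option autoImplicit false

namespace Cfsg.Agent.H435.P3.Small

open Cfsg Cfsg.Agent.H435 Cfsg.Agent.H435.P3 Cfsg.Agent.H435.P3.Base Cfsg.Agent.H435.Elts Subgroup

/-! ### big centralizers in `PGL₂(11)` and `PGL₂(13)` -/

section Pgl

variable {F : Type*} [Field F]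

theorem mem_center_of {g : GL (Fin 2) F} {c : F} (h : (g : Matrix (Fin 2) (Fin 2) F) = c • 1) :
    g ∈ Subgroup.center (GL (Fin 2) F) := by
  rw [Subgroup.mem_center_iff]
  intro x
  apply Units.ext
  rw [Units.val_mul, Units.val_mul, h, mul_smul_comm, smul_mul_assoc, mul_one, one_mul]

theorem not_mem_center_of {g : GL (Fin 2) F} (h : (g : Matrix (Fin 2) (Fin 2) F) 0 1 ≠ 0) :
    g ∉ Subgroup.center (GL (Fin 2) F) := by
  intro hc
  let u : GL (Fin 2) F := Matrix.GeneralLinearGroup.mkOfDetNeZero !![1, 0; 1, 1] (by simp [Matrix.det_fin_two])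
  have h1 := Subgroup.mem_center_iff.1 hc u
  have h2 : (u : Matrix (Fin 2) (Fin 2) F) * (g : Matrix (Fin 2) (Fin 2) F) = g * u := congrArg Units.val h1
  have h3 := congrFun (congrFun h2 0) 0
  simp only [u, Matrix.GeneralLinearGroup.mkOfDetNeZero, Matrix.GeneralLinearGroup.mk'] at h3
  rw [Matrix.mul_apply, Matrix.mul_apply, Fin.sum_univ_two, Fin.sum_univ_two] at h3
  simp [Matrix.unitOfDetInvertible] at h3
  exact h h3

theorem not_mem_center_of' {g : GL (Fin 2) F}
    (h : (g : Matrix (Fin 2) (Fin 2) F) 0 0 ≠ (g : Matrix (Fin 2) (Fin 2) F) 1 1) :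
    g ∉ Subgroup.center (GL (Fin 2) F) := by
  intro hc
  let u : GL (Fin 2) F := Matrix.GeneralLinearGroup.mkOfDetNeZero !![1, 0; 1, 1] (by simp [Matrix.det_fin_two])
  have h1 := Subgroup.mem_center_iff.1 hc u
  have h2 : (u : Matrix (Fin 2) (Fin 2) F) * (g : Matrix (Fin 2) (Fin 2) F) = g * u := congrArg Units.val h1
  have h3 := congrFun (congrFun h2 1) 0
  simp only [u, Matrix.GeneralLinearGroup.mkOfDetNeZero, Matrix.GeneralLinearGroup.mk'] at h3
  rw [Matrix.mul_apply, Matrix.mul_apply, Fin.sum_univ_two, Fin.sum_univ_two] at h3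
  simp [Matrix.unitOfDetInvertible] at h3
  exact h (by linear_combination h3)

theorem bigCent_of {g : GL (Fin 2) F} {c : F} (h12 : ((g ^ 12 : GL (Fin 2) F) : Matrix (Fin 2) (Fin 2) F) = c • 1)
    (h6 : g ^ 6 ∉ Subgroup.center (GL (Fin 2) F)) (h4 : g ^ 4 ∉ Subgroup.center (GL (Fin 2) F)) :
    BigCent (GL (Fin 2) F ⧸ Subgroup.center (GL (Fin 2) F)) 12 := by
  set u : GL (Fin 2) F ⧸ Subgroup.center (GL (Fin 2) F) := QuotientGroup.mk g with hu
  have hu12 : orderOf u = 12 := by
    apply orderOf_eq_of_pow_and_pow_div_prime (by norm_num)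
    · rw [hu, ← QuotientGroup.mk_pow]
      exact (QuotientGroup.eq_one_iff _).2 (mem_center_of h12)
    · intro p hp hd
      have h : p = 2 ∨ p = 3 := by
        have h1 : p ∣ 2 ^ 2 * 3 := hd
        rcases (hp.dvd_mul).1 h1 with h2 | h2
        · exact Or.inl ((Nat.prime_dvd_prime_iff_eq hp Nat.prime_two).1 (hp.dvd_of_dvd_pow h2))
        · exact Or.inr ((Nat.prime_dvd_prime_iff_eq hp Nat.prime_three).1 h2)
      rcases h with rfl | rfl
      · intro h
        rw [hu, ← QuotientGroup.mk_pow, QuotientGroup.eq_one_iff] at h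
        exact h6 h
      · intro h
        rw [hu, ← QuotientGroup.mk_pow, QuotientGroup.eq_one_iff] at h
        exact h4 h
  refine ⟨u ^ 4, zpowers u, ?_, ?_, by rw [Nat.card_zpowers, hu12]⟩
  · rw [orderOf_pow' u (by norm_num), hu12]
    norm_num
  · intro y hy
    obtain ⟨k, rfl⟩ := mem_zpowers_iff.1 hy
    exact ((Commute.refl u).zpow_left k).pow_right 4

instance : Fact (Nat.Prime 11) := ⟨by norm_num⟩
instance : Fact (Nat.Prime 13) := ⟨by norm_num⟩

theorem big11 : BigCent (GL (Fin 2) (ZMod 11) ⧸ Subgroup.center (GL (Fin 2) (ZMod 11))) 12 := by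
  let g : GL (Fin 2) (ZMod 11) := Matrix.GeneralLinearGroup.mkOfDetNeZero !![0, 1; 1, 2] (by decide)
  have hg : (g : Matrix (Fin 2) (Fin 2) (ZMod 11)) = !![0, 1; 1, 2] := rfl
  refine bigCent_of (g := g) (c := 10) ?_ ?_ ?_
  · rw [Units.val_pow_eq_pow_val, hg]
    decide +kernel
  · apply not_mem_center_of
    rw [Units.val_pow_eq_pow_val, hg]
    decide +kernel
  · apply not_mem_center_of
    rw [Units.val_pow_eq_pow_val, hg]
    decide +kernel

theorem big13 : BigCent (GL (Fin 2) (ZMod 13) ⧸ Subgroup.center (GL (Fin 2) (ZMod 13))) 12 := by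
  let g : GL (Fin 2) (ZMod 13) := Matrix.GeneralLinearGroup.mkOfDetNeZero !![2, 0; 0, 1] (by decide)
  have hg : (g : Matrix (Fin 2) (Fin 2) (ZMod 13)) = !![2, 0; 0, 1] := rfl
  refine bigCent_of (g := g) (c := 1) ?_ ?_ ?_
  · rw [Units.val_pow_eq_pow_val, hg]
    decide +kernel
  · apply not_mem_center_of'
    rw [Units.val_pow_eq_pow_val, hg]
    decide +kernel
  · apply not_mem_center_of'
    rw [Units.val_pow_eq_pow_val, hg]
    decide +kernel

end Pgl

/-! ### extensions of `A₅` -/

theorem alt5 {G : Type*} [Group G] [Finite G] {L : Subgroup G} [L.Normal]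
    (hC : centralizer (L : Set G) = ⊥) (e : L ≃* alternatingGroup (Fin 5)) :
    Nonempty (G ≃* alternatingGroup (Fin 5)) ∨ Nonempty (G ≃* Equiv.Perm (Fin 5)) := by
  obtain ⟨ψ, hψ⟩ := UAlt.AutFive.exists_autHom_fin 5 le_rfl (by norm_num)
  let φ : G →* MulAut L := MulAut.conjNormal
  have hφ : ∀ (h : G) (l : L), ((φ h l : L) : G) = h * l * h⁻¹ := fun h l => rfl
  have hinj : Function.Injective φ := by
    rw [injective_iff_map_eq_one]
    intro h hh
    have h1 : h ∈ centralizer (L : Set G) := by
      rw [mem_centralizer_iff]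
      intro l hl
      have h3 := hφ h ⟨l, hl⟩
      rw [hh] at h3
      have h4 : l = h * l * h⁻¹ := h3
      nth_rw 1 [h4]
      group
    rw [hC] at h1
    exact mem_bot.1 h1
  have hψi : Function.Injective ψ := by
    rw [injective_iff_map_eq_one]
    intro a ha
    ext x
    rw [hψ a x, ha, one_mul, inv_one, mul_one]
    rfl
  let f : G →* Equiv.Perm (Fin 5) := ψ.comp ((MulAut.congr e).toMonoidHom.comp φ)
  have hf : Function.Injective f := hψi.comp ((MulAut.congr e).injective.comp hinj)
  have h5 : Nat.card (Equiv.Perm (Fin 5)) = 120 := by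
    rw [Nat.card_eq_fintype_card, Fintype.card_perm, Fintype.card_fin]; rfl
  have hA : Nat.card L = 60 := by
    have := Cases.alt_card (n := 5) le_rfl e
    rw [show Nat.factorial 5 = 120 from rfl] at this
    omega
  have h1 : Nat.card G ∣ 120 := by rw [← h5]; exact card_dvd_of_injective f hf
  have h2 : 60 ∣ Nat.card G := by rw [← hA]; exact card_subgroup_dvd_card L
  obtain ⟨k, hk⟩ := h2
  have h3 : k = 1 ∨ k = 2 := by
    have hle := Nat.le_of_dvd (by norm_num) h1
    have hpos : 0 < Nat.card G := Nat.card_pos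
    have : k ≤ 2 := by omega
    interval_cases k <;> omega
  rcases h3 with rfl | rfl
  · left
    have htop : L = ⊤ := Subgroup.eq_top_of_card_eq L (by rw [hA, hk])
    subst htop
    exact ⟨topEquiv.symm.trans e⟩
  · right
    refine ⟨MulEquiv.ofBijective f ((Nat.bijective_iff_injective_and_card f).2 ⟨hf, ?_⟩)⟩
    rw [h5, hk]

/-- the normalizer of an element of order 3 in a simple group of order 168 is not maximal -/
theorem not168 {G : Type*} [Group G] [Finite G] [IsSimpleGroup G] (h168 : Nat.card G = 168) {x : G}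
    (hx : orderOf x = 3) {H : Subgroup G} (hH : IsCoatom H) (hn : normalizer (zpowers x : Set G) = H)
    (hcard : Nat.card H = 6 ∨ Nat.card H = 12) : False := by
  have : Fact (Nat.Prime 3) := ⟨Nat.prime_three⟩
  have h9 : ¬ 9 ∣ Nat.card G := by rw [h168]; norm_num
  have hf := Three.factorization h9 (by rw [h168]; norm_num)
  let P : Sylow 3 G := Sylow.ofCard (zpowers x) (by rw [Nat.card_zpowers, hx, hf, pow_one])
  have hP : (P : Subgroup G) = zpowers x := rfl
  have h6 : Nat.card H = 6 := by
    refine hcard.resolve_right fun h12 => ?_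
    have h1 := card_sylow_modEq_one 3 G
    have h0 : Nat.card (Sylow 3 G) = (normalizer (zpowers x : Set G)).index := Sylow.card_eq_index_normalizer P
    rw [h0, hn] at h1
    have h2 := card_mul_index H
    rw [h12, h168] at h2
    have h3 : H.index = 14 := by omega
    rw [h3] at h1
    revert h1
    decide
  have : Fact (Nat.Prime 7) := ⟨by norm_num⟩
  obtain ⟨e⟩ := S0495.result h168 (F := ZMod 7) (ZMod.card 7)
  obtain ⟨K, ⟨eK⟩⟩ := (S0803.result (F := ZMod 7) (q := 7) (ZMod.card 7)).2 (by norm_num)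
  set K' : Subgroup G := K.comap e.toMonoidHom with hK'
  have hK24 : Nat.card K' = 24 := by
    have h1 : Nat.card K' = Nat.card K := by
      have h2 : K'.map e.toMonoidHom = K := map_comap_eq_self_of_surjective e.surjective K
      rw [← h2]
      exact Nat.card_congr (K'.equivMapOfInjective _ e.injective).toEquiv
    rw [h1, Nat.card_congr eK.toEquiv, Nat.card_eq_fintype_card, Fintype.card_perm, Fintype.card_fin]
    rfl
  obtain ⟨y, hy⟩ := exists_prime_orderOf_dvd_card' (G := K') 3 (by rw [hK24]; norm_num)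
  have hyG : orderOf (y : G) = 3 := by rw [Subgroup.orderOf_coe, hy]
  have h9K : ¬ 9 ∣ Nat.card K' := by rw [hK24]; norm_num
  have hfK := Three.factorization h9K (by rw [hK24]; norm_num)
  let Q : Sylow 3 K' := Sylow.ofCard (zpowers y) (by rw [Nat.card_zpowers, hy, hfK, pow_one])
  have hQ : (Q : Subgroup K') = zpowers y := rfl
  have hidx : (normalizer (zpowers y : Set K')).index = 1 ∨ (normalizer (zpowers y : Set K')).index = 4 := by
    have h1 := card_sylow_modEq_one 3 K'
    have h2 : Nat.card (Sylow 3 K') = (normalizer (zpowers y : Set K')).index := Sylow.card_eq_index_normalizer Q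
    have h3 := card_mul_index (normalizer (zpowers y : Set K'))
    rw [hK24] at h3
    have h4 : 3 ∣ Nat.card (normalizer (zpowers y : Set K')) := by
      have h5 : zpowers y ≤ normalizer (zpowers y : Set K') := le_normalizer
      have := card_dvd_of_le h5
      rwa [Nat.card_zpowers, hy] at this
    rw [h2] at h1
    obtain ⟨r, hr⟩ := h4
    rw [hr] at h3
    have h5 : (normalizer (zpowers y : Set K')).index ∣ 8 := ⟨r, by
      have : 3 * (r * (normalizer (zpowers y : Set K')).index) = 24 := by rw [← mul_assoc]; exact h3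
      rw [mul_comm]; omega⟩
    generalize (normalizer (zpowers y : Set K')).index = i at *
    have hle := Nat.le_of_dvd (by norm_num) h5
    interval_cases i <;> revert h1 h5 <;> decide
  obtain ⟨g, hg⟩ := Three.exists_conj h9 hx hyG
  have hmap : (zpowers x).map (MulAut.conj g).toMonoidHom = zpowers (y : G) := by
    rw [← hg, MonoidHom.map_zpowers]
    rfl
  have hNy : normalizer (zpowers (y : G) : Set G) = H.map (MulAut.conj g).toMonoidHom := by
    rw [← hmap, ← hn, map_equiv_normalizer_eq]
  have hcH : Nat.card (H.map (MulAut.conj g).toMonoidHom) = 6 := by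
    rw [← h6]
    exact (Nat.card_congr (H.equivMapOfInjective _ (MulAut.conj g).injective).toEquiv).symm
  set N' : Subgroup G := (normalizer (zpowers y : Set K')).map K'.subtype with hN'
  have hcN : Nat.card N' = Nat.card (normalizer (zpowers y : Set K')) :=
    (Nat.card_congr (equivMapOfInjective _ _ K'.subtype_injective).toEquiv).symm
  have hle : N' ≤ H.map (MulAut.conj g).toMonoidHom := by
    rw [← hNy, hN']
    have h1 := le_normalizer_map (H := zpowers y) K'.subtype
    rwa [MonoidHom.map_zpowers] at h1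
  have hc := card_mul_index (normalizer (zpowers y : Set K'))
  rw [hK24] at hc
  have hdvd := card_dvd_of_le hle
  rw [hcN, hcH] at hdvd
  have hcN6 : Nat.card (normalizer (zpowers y : Set K')) = 6 := by
    rcases hidx with h | h
    · rw [h] at hc
      rw [mul_one] at hc
      rw [hc] at hdvd
      norm_num at hdvd
    · rw [h] at hc
      omega
  have hNH : N' = H.map (MulAut.conj g).toMonoidHom :=
    eq_of_le_of_card_ge hle (by rw [hcN, hcN6, hcH])
  have hle2 : H.map (MulAut.conj g).toMonoidHom ≤ K' := by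
    rw [← hNH]
    exact map_subtype_le _
  have hle3 : H ≤ K'.map (MulAut.conj g⁻¹).toMonoidHom := by
    intro a ha
    have h1 : g * a * g⁻¹ ∈ K' := hle2 ⟨a, ha, rfl⟩
    refine ⟨g * a * g⁻¹, h1, ?_⟩
    change g⁻¹ * (g * a * g⁻¹) * g⁻¹⁻¹ = a
    group
  have hcK : Nat.card (K'.map (MulAut.conj g⁻¹).toMonoidHom) = 24 := by
    rw [← hK24]
    exact (Nat.card_congr (K'.equivMapOfInjective _ (MulAut.conj g⁻¹).injective).toEquiv).symm
  rcases hH.le_iff.1 hle3 with h | h
  · rw [h, card_top, h168] at hcK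
    norm_num at hcK
  · rw [h, h6] at hcK
    norm_num at hcK

theorem two7 : (2 : ZMod 7) ≠ 0 := by decide

/-- **the stabilizers `S₃` and `D₁₂`** -/
theorem main {G : Type*} [Group G] [Finite G] {H : Subgroup G} (h : Hyp H) {x : G} (hx : orderOf x = 3)
    (hn : normalizer (zpowers x : Set G) = H) (hcard : Nat.card H = 6 ∨ Nat.card H = 12)
    {g : G} (hg : g ∈ H) (hinv : g * x * g⁻¹ = x⁻¹) :
    Nonempty (G ≃* alternatingGroup (Fin 5)) ∨ Nonempty (G ≃* Equiv.Perm (Fin 5)) ∨
      Nonempty (G ≃* GL (Fin 2) (ZMod 7) ⧸ Subgroup.center (GL (Fin 2) (ZMod 7))) ∨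
      Nonempty (G ≃* Matrix.ProjectiveSpecialLinearGroup (Fin 2) (ZMod 11)) ∨
      Nonempty (G ≃* Matrix.ProjectiveSpecialLinearGroup (Fin 2) (ZMod 13)) := by
  have hx3 : x ^ 3 = 1 := by rw [← hx]; exact pow_orderOf_eq_one x
  have hx1 : x ≠ 1 := by
    rintro rfl
    rw [orderOf_one] at hx
    omega
  have hCH : centralizer ({x} : Set G) ≤ H := by
    rw [← hn, ← Three.centralizer_zpowers]
    exact centralizer_le_normalizer _
  have hgC : g ∉ centralizer ({x} : Set G) := by
    intro hc
    rw [mem_centralizer_singleton_iff] at hc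
    rw [hc, mul_inv_cancel_right] at hinv
    have h1 : x ^ 2 = 1 := by rw [pow_two]; nth_rw 2 [hinv]; exact mul_inv_cancel x
    apply hx1
    calc x = x ^ 3 * (x ^ 2)⁻¹ := by group
      _ = 1 := by rw [hx3, h1, inv_one, mul_one]
  have hC6 : Nat.card (centralizer ({x} : Set G)) ∣ 6 := by
    have h1 := card_dvd_of_le hCH
    have h3 : 3 ∣ Nat.card (centralizer ({x} : Set G)) := by
      have hxC : x ∈ centralizer ({x} : Set G) := mem_centralizer_singleton_iff.2 rfl
      have := orderOf_dvd_natCard (⟨x, hxC⟩ : centralizer ({x} : Set G))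
      rwa [← Subgroup.orderOf_coe, hx] at this
    have h2 : Nat.card (centralizer ({x} : Set G)) ≠ Nat.card H := by
      intro heq
      have : centralizer ({x} : Set G) = H := eq_of_le_of_card_ge hCH heq.ge
      rw [this] at hgC
      exact hgC hg
    generalize Nat.card (centralizer ({x} : Set G)) = c at *
    rcases hcard with h6 | h12
    · rw [h6] at h1
      exact h1
    · rw [h12] at h1 h2
      have hle := Nat.le_of_dvd (by norm_num) h1
      interval_cases c <;> omega
  have h9 : ¬ 9 ∣ Nat.card G := Three.not_nine hx fun h => by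
    have := Nat.le_of_dvd (by norm_num) (h.trans hC6)
    omega
  have hO := Core.core_eq_bot h hx hC6
  have hbig : ∀ k, BigCent G k → k ∣ 6 := by
    rintro k ⟨y, V, hy, hV, rfl⟩
    refine Dvd.dvd.trans ?_ hC6
    rw [← Three.card_centralizer h9 hx hy]
    apply card_dvd_of_le
    intro z hz
    rw [mem_centralizer_singleton_iff]
    exact hV z hz
  set L := normalClosure ({x} : Set G) with hL
  have hLn : L.Normal := normalClosure_normal
  have hxL : x ∈ L := subset_normalClosure rfl
  have hL1 : L ≠ ⊥ := by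
    intro hb
    rw [hb, mem_bot] at hxL
    exact hx1 hxL
  have hnc : ¬ IsMulCommutative ↥(normalClosure ({x} : Set G)) := by
    intro hc
    apply h.not_solvable hLn hL1
    exact Group.isSolvable_of_comm hc.is_comm.comm
  have hsimple : IsSimpleGroup L := Quot.simple h9 hO hx
  have hC0 : centralizer (L : Set G) = ⊥ := Quot.centralizer_eq_bot h9 hO hx hnc
  have hyo : orderOf (⟨x, hxL⟩ : L) = 3 := by rw [← Subgroup.orderOf_coe]; exact hx
  have hCcard : Nat.card (Subgroup.centralizer ({(⟨x, hxL⟩ : L)} : Set L)) ∣ 6 := by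
    have h1 : (Subgroup.centralizer ({(⟨x, hxL⟩ : L)} : Set L)).map L.subtype ≤
        Subgroup.centralizer ({x} : Set G) := by
      rintro _ ⟨a, ha, rfl⟩
      exact Subgroup.mem_centralizer_singleton_iff.2
        (congrArg Subtype.val (Subgroup.mem_centralizer_singleton_iff.1 ha))
    have h2 := Subgroup.card_dvd_of_le h1
    have h3 : Nat.card ((Subgroup.centralizer ({(⟨x, hxL⟩ : L)} : Set L)).map L.subtype) =
        Nat.card (Subgroup.centralizer ({(⟨x, hxL⟩ : L)} : Set L)) :=
      (Nat.card_congr (Subgroup.equivMapOfInjective _ _ L.subtype_injective).toEquiv).symm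
    rw [h3] at h2
    exact h2.trans hC6
  rcases LemB.lemmaB hnc (Quot.nine_sub h9 L) hyo hCcard with h60 | h168 | h660 | h1092
  · obtain ⟨e⟩ := S0494.result h60
    rcases alt5 hC0 e with h | h
    · exact Or.inl h
    · exact Or.inr (Or.inl h)
  · have : Fact (Nat.Prime 7) := ⟨by norm_num⟩
    obtain ⟨e⟩ := S0495.result h168 (F := ZMod 7) (ZMod.card 7)
    rcases Pgl.exists_pgl hC0 two7 (fun σ => Subsingleton.elim _ _) e with htop | ⟨-, h⟩
    · exfalso
      replace h168 : Nat.card L = 168 := h168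
      rw [htop, card_top] at h168
      have : IsSimpleGroup G := by
        have e2 : L ≃* G := (MulEquiv.subgroupCongr htop).trans topEquiv
        exact e2.symm.isSimpleGroup
      exact not168 h168 hx h.max hn hcard
    · exact Or.inr (Or.inr (Or.inl h))
  · obtain ⟨e⟩ := S0498.result (G := L) 11 (Or.inl rfl) (by rw [h660]; norm_num) (F := ZMod 11) (ZMod.card 11)
    rcases Pgl.exists_pgl hC0 (by decide) (fun σ => Subsingleton.elim _ _) e with htop | ⟨-, ⟨h⟩⟩
    · exact Or.inr (Or.inr (Or.inr (Or.inl ⟨(topEquiv.symm.trans (MulEquiv.subgroupCongr htop.symm)).trans e⟩)))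
    · exfalso
      have := hbig _ (big11.congr h.symm)
      norm_num at this
  · obtain ⟨e⟩ := S0498.result (G := L) 13 (Or.inr rfl) (by rw [h1092]; norm_num) (F := ZMod 13) (ZMod.card 13)
    rcases Pgl.exists_pgl hC0 (by decide) (fun σ => Subsingleton.elim _ _) e with htop | ⟨-, ⟨h⟩⟩
    · exact Or.inr (Or.inr (Or.inr (Or.inr ⟨(topEquiv.symm.trans (MulEquiv.subgroupCongr htop.symm)).trans e⟩)))
    · exfalso
      have := hbig _ (big13.congr h.symm)
      norm_num at this

/-- **the stabilizer `Z₃`** -/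
theorem main3 {G : Type*} [Group G] [Finite G] {H : Subgroup G} (h : Hyp H) (hcard : Nat.card H = 3) : False := by
  obtain ⟨x', hx'⟩ := exists_prime_orderOf_dvd_card' (G := H) 3 (by rw [hcard])
  have hx : orderOf (x' : G) = 3 := by rw [Subgroup.orderOf_coe, hx']
  obtain ⟨x, hxH⟩ := x'
  change orderOf x = 3 at hx
  have hx3 : x ^ 3 = 1 := by rw [← hx]; exact pow_orderOf_eq_one x
  have hx1 : x ≠ 1 := by
    intro h1
    rw [h1, orderOf_one] at hx
    omega
  have hHx : zpowers x = H := by
    apply eq_of_le_of_card_ge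
    · rw [zpowers_le]; exact hxH
    · rw [Nat.card_zpowers, hx, hcard]
  have hn : normalizer (zpowers x : Set G) = H := by
    apply h.normalizer_eq hHx.le
    · rw [hHx]
      rintro rfl
      rw [card_bot] at hcard
      omega
    · rw [hHx]; exact le_normalizer
  have hcomm : ∀ g ∈ H, g * x = x * g := by
    intro g hg
    rw [← hHx] at hg
    obtain ⟨k, rfl⟩ := mem_zpowers_iff.1 hg
    exact ((Commute.refl x).zpow_left k).eq
  have hCH : centralizer ({x} : Set G) ≤ H := by
    rw [← hn, ← Three.centralizer_zpowers]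
    exact centralizer_le_normalizer _
  have hC6 : Nat.card (centralizer ({x} : Set G)) ∣ 6 := by
    have h1 := card_dvd_of_le hCH
    rw [hcard] at h1
    exact h1.trans (by norm_num)
  have h9 : ¬ 9 ∣ Nat.card G := Three.not_nine hx fun h => by
    have := Nat.le_of_dvd (by norm_num) (h.trans hC6)
    omega
  have hO := Core.core_eq_bot h hx hC6
  have hLn : (normalClosure ({x} : Set G)).Normal := normalClosure_normal
  have hxL : x ∈ normalClosure ({x} : Set G) := subset_normalClosure rfl
  have hL1 : normalClosure ({x} : Set G) ≠ ⊥ := by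
    intro hb
    rw [hb, mem_bot] at hxL
    exact hx1 hxL
  have hnc : ¬ IsMulCommutative ↥(normalClosure ({x} : Set G)) := by
    intro hc
    apply h.not_solvable hLn hL1
    exact Group.isSolvable_of_comm hc.is_comm.comm
  have hsimple : IsSimpleGroup ↥(normalClosure ({x} : Set G)) := Quot.simple h9 hO hx
  have hyo : orderOf (⟨x, hxL⟩ : normalClosure ({x} : Set G)) = 3 := by rw [← Subgroup.orderOf_coe]; exact hx
  obtain ⟨g, hg⟩ := Quot.exists_invert hnc (Quot.nine_sub h9 _) hyo
  have hg' : (g : G) * x * (g : G)⁻¹ = x⁻¹ := congrArg Subtype.val hg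
  have hgN : (g : G) ∈ normalizer (zpowers x : Set G) := by
    have h1 : zpowers (MulAut.conj (g : G) x) = zpowers x := by
      rw [MulAut.conj_apply, hg', zpowers_inv]
    rw [mem_normalizer_iff_map_conj_eq, MonoidHom.map_zpowers]
    exact h1
  rw [hn] at hgN
  rw [hcomm _ hgN, mul_inv_cancel_right] at hg'
  have h1 : x ^ 2 = 1 := by rw [pow_two]; nth_rw 2 [hg']; exact mul_inv_cancel x
  apply hx1
  calc x = x ^ 3 * (x ^ 2)⁻¹ := by group
    _ = 1 := by rw [hx3, h1, inv_one, mul_one]

end Cfsg.Agent.H435.P3.Small
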